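import Cfsg.Agent.H600.RIM.Row
import Cfsg.Agent.H698.RIM.AltB
import Cfsg.Agent.H95.StemCover
import Cfsg.Agent.S2116

/-!
# S4816: `NBall 3 A₇` (helper175)

The double cover of `A₇` has a faithful irreducible character of degree `36` (label `(5,2)`).
-/

set_option autoImplicit false

namespace Cfsg.Agent.H175.RIM

open Finset Cfsg Cfsg.Agent.H614.Spin Cfsg.Agent.Characters.Core Cfsg.Agent.H665.RIM
open Cfsg.Agent.SporadicRecognition.AltCover Cfsg.Agent.H686.Spin Cfsg.Agent.H600.RIM

universe u

/-- a perfect central extension of `A_n` with kernel of order two, over the faithful character: a label whose degree is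
divisible by `p` gives a character -/
theorem nb_two_alt {S : Type u} [Group S] {n : ℕ} (hn : 5 ≤ n) (e : S ≃* alternatingGroup (Fin n)) {p : ℕ}
    (hp : p.Prime) (hp2 : p ≠ 2)
    (hlab : ∃ L : List ℤ, Strict L ∧ L.sum = n ∧ (p : ℤ) ∣ X (Multiset.replicate n 1) L) : NB p 2 S := by
  intro E _ _ π hsurj hcen hperf hcard l hl
  -- the generator of the kernel
  obtain ⟨z, hz1, hz⟩ := (Nat.card_eq_two_iff' (1 : π.ker)).1 hcard
  have hall : ∀ x : π.ker, x = 1 ∨ x = z := fun x => by
    by_cases hx : x = 1
    · exact Or.inl hx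
    · exact Or.inr (hz x hx)
  have hzz : (z : E) * z = 1 := by
    rcases hall (z * z) with h | h
    · exact congrArg Subtype.val h
    · exact absurd (mul_eq_left.1 h) hz1
  have hz1' : (z : E) ≠ 1 := fun h => hz1 (Subtype.ext h)
  have hzc : ∀ x, x * (z : E) = z * x := fun x => Subgroup.mem_center_iff.1 (hcen z.2) x
  let π' : E →* alternatingGroup (Fin n) := e.toMonoidHom.comp π
  have hπ' : ∀ x, π' x = 1 ↔ π x = 1 := fun x => MulEquiv.map_eq_one_iff e
  have hker' : π'.ker = π.ker := by
    ext x
    exact hπ' x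
  have hcov : IsCover π' (z : E) :=
    { z_ne := hz1'
      z_mul := hzz
      z_comm := hzc
      surj := e.surjective.comp hsurj
      ker := by
        intro x
        rw [hπ']
        constructor
        · intro h
          rcases hall ⟨x, MonoidHom.mem_ker.2 h⟩ with h1 | h1
          · exact Or.inl (congrArg Subtype.val h1)
          · exact Or.inr (congrArg Subtype.val h1)
        · rintro (rfl | rfl)
          · exact map_one π
          · exact z.2
      nonsplit := fun s => nonsplit_of_perfect (hker'.le.trans hcen) hperf ((hπ' _).2 z.2) hz1' s }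
  obtain ⟨L, hL, hs, hd⟩ := hlab
  obtain ⟨χ, hχ, hχz, hpd⟩ := exists_alt_char hn hcov hL hs hp hp2 hd
  refine ⟨χ, hχ, fun x => ?_, hpd⟩
  rcases hall x with rfl | rfl
  · rw [map_one, OneMemClass.coe_one, Units.val_one, mul_one]
  · have h1 : l x * l x = 1 := by
      rw [← map_mul]
      have : x * x = 1 := Subtype.ext hzz
      rw [this, map_one]
    have h2 : ((l x : ℂˣ) : ℂ) * (l x : ℂˣ) = 1 := by rw [← Units.val_mul, h1, Units.val_one]
    have h3 : ((l x : ℂˣ) : ℂ) = -1 := by
      rcases mul_self_eq_one_iff.1 h2 with h | h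
      · exfalso
        apply hz1
        apply hl
        rw [map_one]
        exact Units.ext h
      · exact h
    rw [hχz, h3, mul_neg, mul_one]

/-- kernels of perfect central extensions of `A₆`, `A₇` -/
theorem card_ker_dvd_six {S : Type u} [Group S] {n : ℕ} (hn : n = 6 ∨ n = 7) (e : S ≃* alternatingGroup (Fin n))
    {E : Type u} [Group E] [Finite E] (π : E →* S) (hπ : Function.Surjective π) (hc : π.ker ≤ Subgroup.center E)
    (hperf : commutator E = ⊤) : Nat.card π.ker ∣ 6 := by
  have h := Cfsg.Agent.H95.StemCover.card_ker_dvd_cyclic (Cfsg.Agent.S2116.result n hn) hperf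
    (e.toMonoidHom.comp π) (e.surjective.comp hπ) (by
      intro x hx
      refine hc ?_
      rw [MonoidHom.mem_ker] at hx ⊢
      exact (MulEquiv.map_eq_one_iff e).1 hx)
  have h1 : (e.toMonoidHom.comp π).ker = π.ker := by
    ext x
    exact MulEquiv.map_eq_one_iff e
  rwa [h1] at h

/-- **the row `alt7`**: `NBall 3 A₇` -/
theorem nball_alt7 {S : Type u} [Group S] [Finite S] (e : S ≃* alternatingGroup (Fin 7)) : NBall 3 S := by
  intro m hm2 hpm E _ _ π hsurj hcen hperf hcard l hl
  have h6 : m ∣ 6 := by
    rw [← hcard]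
    exact card_ker_dvd_six (Or.inr rfl) e π hsurj hcen hperf
  have hm : m = 2 := by
    have := Nat.le_of_dvd (by norm_num) h6
    interval_cases m <;> revert h6 hpm <;> decide
  subst hm
  refine nb_two_alt (n := 7) (by norm_num) e Nat.prime_three (by norm_num) ?_ E π hsurj hcen hperf hcard l hl
  refine Cfsg.Agent.H698.RIM.dvd_two (n := 7) (k := 2) Nat.prime_three (by norm_num) (by norm_num) (by norm_num) ?_
  have : ((Nat.choose 7 2 : ℕ) : ℤ) = 21 := by decide
  rw [this]
  norm_num

end Cfsg.Agent.H175.RIM
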