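import Mathlib

/-!
# S4816: generation of `A₇` by two five-cycles, and some elements (helper175)
-/

set_option autoImplicit false

namespace Cfsg.Agent.H175.RIM.Seven

open Equiv Equiv.Perm Subgroup

abbrev A7 := alternatingGroup (Fin 7)

def x5 : A7 := ⟨c[0, 1, 2, 3, 4], mem_alternatingGroup.2 (by decide +kernel)⟩
def y5 : A7 := ⟨c[2, 3, 4, 5, 6], mem_alternatingGroup.2 (by decide +kernel)⟩
def gg : A7 := x5 * y5 * x5 * y5 * x5 * y5
def u4 : A7 := ⟨c[1, 2, 4, 3] * c[5, 6], mem_alternatingGroup.2 (by decide +kernel)⟩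
def w7 : A7 := x5 * y5
def y3 : A7 := ⟨c[0, 1, 2], mem_alternatingGroup.2 (by decide +kernel)⟩
def a1 : A7 := ⟨c[0, 1] * c[2, 3], mem_alternatingGroup.2 (by decide +kernel)⟩
def a2 : A7 := ⟨c[0, 2] * c[1, 3], mem_alternatingGroup.2 (by decide +kernel)⟩
def a3 : A7 := ⟨c[0, 3] * c[1, 2], mem_alternatingGroup.2 (by decide +kernel)⟩

theorem conj_x5 : gg * x5 * gg⁻¹ = y5 := by decide +kernel
theorem x5_pow : x5 ^ 5 = 1 := by decide +kernel
theorem x5_ne : x5 ≠ 1 := by decide +kernel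
theorem u4_pow : u4 ^ 4 = 1 := by decide +kernel
theorem u4_sq : u4 ^ 2 ≠ 1 := by decide +kernel
theorem u4_x5 : u4 * x5 * u4⁻¹ = x5 ^ 2 := by decide +kernel
theorem w7_pow : w7 ^ 7 = 1 := by decide +kernel
theorem w7_ne : w7 ≠ 1 := by decide +kernel
theorem y3_pow : y3 ^ 3 = 1 := by decide +kernel
theorem y3_ne : y3 ≠ 1 := by decide +kernel

theorem trans7 : ∀ a b : Fin 7, ∃ k : Fin 7, ((w7 : Perm (Fin 7)) ^ (k : ℕ)) a = b := by decide +kernel

theorem three : IsThreeCycle ((x5⁻¹ * x5⁻¹ * y5⁻¹ * x5⁻¹ * x5⁻¹ * y5⁻¹ : A7) : Perm (Fin 7)) := by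
  unfold IsThreeCycle
  decide +kernel

/-- two five-cycles generate -/
theorem gen (M : Subgroup A7) (hx : x5 ∈ M) (hy : y5 ∈ M) : M = ⊤ := by
  let T : Subgroup (Perm (Fin 7)) := M.map (alternatingGroup (Fin 7)).subtype
  have hT : ∀ g : A7, g ∈ M → (g : Perm (Fin 7)) ∈ T := fun g hg => ⟨g, hg, rfl⟩
  have hw : w7 ∈ M := M.mul_mem hx hy
  have htr : MulAction.IsPretransitive T (Fin 7) := by
    refine ⟨fun a b => ?_⟩
    obtain ⟨k, hk⟩ := trans7 a b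
    exact ⟨⟨(w7 : Perm (Fin 7)) ^ (k : ℕ), T.pow_mem (hT w7 hw) _⟩, hk⟩
  have hprim : MulAction.IsPreprimitive T (Fin 7) :=
    MulAction.IsPreprimitive.of_prime_card (by rw [Nat.card_eq_fintype_card, Fintype.card_fin]; norm_num)
  have hle := Equiv.Perm.alternatingGroup_le_of_isPreprimitive_of_isThreeCycle_mem hprim three
    (hT _ (M.mul_mem (M.mul_mem (M.mul_mem (M.mul_mem (M.mul_mem (M.inv_mem hx) (M.inv_mem hx)) (M.inv_mem hy))
      (M.inv_mem hx)) (M.inv_mem hx)) (M.inv_mem hy)))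
  rw [eq_top_iff]
  intro g _
  obtain ⟨g', hg', hgg⟩ := hle g.2
  have : g' = g := Subtype.ext hgg
  exact this ▸ hg'

end Cfsg.Agent.H175.RIM.Seven
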