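import Cfsg.Agent.H315.RIM.J2Five

/-!
# S4816, module side: reduction to the simple group for multipliers dividing six (helper175)

`ek_of_action` : the general form of `ek_of_noPEx` (only `N = K` is used);
`ek_of_nb` : all perfect central extensions of `S` (with `p'`-kernel) have kernels of order dividing 6, `NB p 2 S`,
`NB p 3 S`, `NoPEx p S` : then `EK p S` (users: `A₆`, `A₇`).
-/

set_option autoImplicit false
set_option linter.unusedSectionVars false

namespace Cfsg.Agent.H175.RIM

open Subgroup Cfsg Cfsg.Agent.H665.RIM Cfsg.Agent.H229.RIM Cfsg.Agent.Characters.Core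
open scoped commutatorElement

universe u

/-- the kernel of `π` acts trivially: `NoPEx p S` is a contradiction -/
theorem false_of_noPEx {p : ℕ} {S : Type u} [Group S] [Finite S] (h : NoPEx p S)
    {H V : Type u} [Group H] [Finite H] [AddCommGroup V] [Finite V] [DistribMulAction H V]
    {K N : Subgroup H} {φ : N →* ℂˣ} {π : H →* S} (C : CoreP (V := V) p K N φ)
    (hπ : Function.Surjective π) (hker : π.ker = K) (hNK : N = K) : False := by
  have hψ : ∀ x y : H, π x = π y → ∀ w : V, x • w = y • w := by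
    intro x y hxy w
    have h1 : y⁻¹ * x ∈ N := by
      rw [hNK, ← hker, MonoidHom.mem_ker, map_mul, map_inv, hxy, inv_mul_cancel]
    have h2 := (C.ker _).2 h1 w
    calc x • w = y • ((y⁻¹ * x) • w) := by rw [smul_smul, mul_inv_cancel_left]
      _ = y • w := by rw [h2]
  let r : S → H := Function.surjInv hπ
  have hr : ∀ s, π (r s) = s := Function.surjInv_eq hπ
  let _ : DistribMulAction S V :=
    { smul := fun s w => r s • w
      one_smul := fun w => by
        show r 1 • w = w
        rw [hψ (r 1) 1 (by rw [hr, map_one]), one_smul]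
      mul_smul := fun s s' w => by
        show r (s * s') • w = r s • r s' • w
        rw [hψ (r (s * s')) (r s * r s') (by rw [map_mul, hr, hr, hr]), mul_smul]
      smul_zero := fun s => by
        show r s • (0 : V) = 0
        rw [smul_zero]
      smul_add := fun s a b => by
        show r s • (a + b) = r s • a + r s • b
        rw [smul_add] }
  have hsm : ∀ (x : H) (w : V), π x • w = x • w := fun x w => hψ (r (π x)) x (hr _) w
  refine h V C.exp C.nt ?_ ?_ ?_
  · intro s hs
    obtain ⟨x, rfl⟩ := hπ s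
    have h1 : x ∈ N := (C.ker x).1 fun w => by rw [← hsm]; exact hs w
    rw [hNK, ← hker] at h1
    exact h1
  · intro W hW
    refine C.irr W fun x w hw => ?_
    rw [← hsm]
    exact hW _ w hw
  · intro w hw
    apply C.P1 w
    have h1 : (MulAction.stabilizer S w).comap π = MulAction.stabilizer H w := by
      ext x
      rw [mem_comap, MulAction.mem_stabilizer_iff, MulAction.mem_stabilizer_iff, hsm]
    rw [← h1, index_comap_of_surjective _ hπ]
    exact hw

/-- the character side at the zero vector: no irreducible character of `H` over `φ` has degree divisible by `p` -/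
theorem not_dvd_of_core {p : ℕ} {H V : Type*} [Group H] [Finite H] [AddCommGroup V] [Finite V] [DistribMulAction H V]
    {K N : Subgroup H} {φ : N →* ℂˣ} (C : CoreP (V := V) p K N φ) {χ : H → ℂ} (hχ : IsIrrCharacter H χ)
    (hl : ∀ n : N, χ n = χ 1 * φ n) : ¬ p ∣ charDegree χ := by
  have hst : MulAction.stabilizer H (0 : V) = ⊤ := by
    rw [eq_top_iff]
    intro x _
    exact smul_zero x
  let e : ↥(MulAction.stabilizer H (0 : V)) ≃* H := (MulEquiv.subgroupCongr hst).trans Subgroup.topEquiv
  have he : ∀ x, e x = (x : H) := fun x => rfl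
  have h1 := C.P2 0 (χ ∘ e.toMonoidHom) (isIrr_comp e.toMonoidHom e.surjective hχ) (by
    intro n hn hn'
    show χ (e ⟨n, hn'⟩) = χ (e 1) * φ ⟨n, hn⟩
    rw [he, he]
    exact hl ⟨n, hn⟩)
  have h2 : charDegree (χ ∘ e.toMonoidHom) = charDegree χ := by
    unfold charDegree
    show ⌊(χ (e 1)).re⌋₊ = _
    rw [map_one]
  rwa [h2] at h1

/-- **Proper `N`**: `N ≤ K` of order `m`, `K` central of order `m * c`, `c` a prime not dividing `m`: `NB p m S` is a
contradiction. -/
theorem false_of_nb {p m c : ℕ} (hc : c.Prime) (hmc : m.Coprime c) {S : Type u} [Group S] [Finite S] (h : NB p m S)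
    {H V : Type u} [Group H] [Finite H] [AddCommGroup V] [Finite V] [DistribMulAction H V]
    {K N : Subgroup H} {φ : N →* ℂˣ} {π : H →* S} (C : CoreP (V := V) p K N φ)
    (hπ : Function.Surjective π) (hker : π.ker = K) (hKZ : K ≤ center H) (hN : Nat.card N = m)
    (hK : Nat.card K = m * c) : False := by
  have hcF : Fact c.Prime := ⟨hc⟩
  obtain ⟨x, hx⟩ := exists_prime_orderOf_dvd_card' (G := K) c (by rw [hK]; exact Dvd.intro_left m rfl)
  let C0 : Subgroup H := zpowers (x : H)
  have hx' : orderOf (x : H) = c := by rw [Subgroup.orderOf_coe, hx]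
  have hC0c : Nat.card C0 = c := by rw [Nat.card_zpowers, hx']
  have hC0K : C0 ≤ K := (zpowers_le).2 x.2
  have hC0Z : C0 ≤ center H := hC0K.trans hKZ
  have hn0 : C0.Normal := by
    constructor
    intro n hn g
    have h1 := mem_center_iff.1 (hC0Z hn) g
    rw [h1, mul_inv_cancel_right]
    exact hn
  have hlift : C0 ≤ π.ker := by rw [hker]; exact hC0K
  let π' : H ⧸ C0 →* S := QuotientGroup.lift C0 π fun y hy => hlift hy
  have hπ'mk : ∀ y : H, π' (y : H ⧸ C0) = π y := fun y => rfl
  have hπ' : Function.Surjective π' := by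
    intro s
    obtain ⟨y, rfl⟩ := hπ s
    exact ⟨(y : H ⧸ C0), rfl⟩
  have hcen' : π'.ker ≤ center (H ⧸ C0) := by
    intro q hq
    obtain ⟨y, rfl⟩ := QuotientGroup.mk_surjective q
    rw [MonoidHom.mem_ker, hπ'mk, ← MonoidHom.mem_ker, hker] at hq
    rw [mem_center_iff]
    intro r
    obtain ⟨w, rfl⟩ := QuotientGroup.mk_surjective r
    rw [← QuotientGroup.mk_mul, ← QuotientGroup.mk_mul, mem_center_iff.1 (hKZ hq) w]
  have hperf' : commutator (H ⧸ C0) = ⊤ := by
    have h1 : (commutator H).map (QuotientGroup.mk' C0) = commutator (H ⧸ C0) := by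
      rw [commutator_def, Subgroup.map_commutator, commutator_def]
      congr 1 <;> exact Subgroup.map_top_of_surjective _ (QuotientGroup.mk'_surjective C0)
    rw [← h1, C.perf]
    exact Subgroup.map_top_of_surjective _ (QuotientGroup.mk'_surjective C0)
  -- the map from `N` to the kernel
  let f : N →* π'.ker := MonoidHom.mk' (fun n => ⟨((n : H) : H ⧸ C0), by
      rw [MonoidHom.mem_ker, hπ'mk, ← MonoidHom.mem_ker, hker]
      exact C.NK n.2⟩) (by
    intro a b
    rfl)
  have hfval : ∀ n : N, ((f n : π'.ker) : H ⧸ C0) = ((n : H) : H ⧸ C0) := fun n => rfl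
  have hfinj : Function.Injective f := by
    rw [injective_iff_map_eq_one]
    intro n hn
    have h1 : ((n : H) : H ⧸ C0) = 1 := congrArg Subtype.val hn
    have h2 : (n : H) ∈ C0 := (QuotientGroup.eq_one_iff (n : H)).1 h1
    have h3 : orderOf (n : H) ∣ c := by
      have := orderOf_dvd_natCard (⟨(n : H), h2⟩ : C0)
      rwa [hC0c, Subgroup.orderOf_mk] at this
    have h4 : orderOf (n : H) ∣ m := by
      have := orderOf_dvd_natCard n
      rwa [hN, ← Subgroup.orderOf_coe] at this
    have h5 : orderOf (n : H) = 1 := Nat.dvd_one.1 (hmc ▸ Nat.dvd_gcd h4 h3)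
    exact Subtype.ext (orderOf_eq_one_iff.1 h5)
  have hcard' : Nat.card π'.ker = m := by
    have h1 : Nat.card H = Nat.card (H ⧸ C0) * Nat.card C0 := Subgroup.card_eq_card_quotient_mul_card_subgroup C0
    have h2 : Nat.card (H ⧸ C0) = Nat.card S * Nat.card π'.ker := by
      have := Subgroup.card_eq_card_quotient_mul_card_subgroup π'.ker
      rwa [Nat.card_congr (QuotientGroup.quotientKerEquivOfSurjective π' hπ').toEquiv] at this
    have h3 : Nat.card H = Nat.card S * Nat.card π.ker := by
      have := Subgroup.card_eq_card_quotient_mul_card_subgroup π.ker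
      rwa [Nat.card_congr (QuotientGroup.quotientKerEquivOfSurjective π hπ).toEquiv] at this
    rw [hker, hK, h1, h2, hC0c] at h3
    have h4 : 0 < Nat.card S := Nat.card_pos
    have h5 : 0 < c := hc.pos
    have h6 : Nat.card S * (Nat.card π'.ker * c) = Nat.card S * (m * c) := by rw [← mul_assoc, h3]
    exact Nat.eq_of_mul_eq_mul_right h5 (Nat.eq_of_mul_eq_mul_left h4 h6)
  have hfbij : Function.Bijective f :=
    (Nat.bijective_iff_injective_and_card f).2 ⟨hfinj, by rw [hN, hcard']⟩
  let e : N ≃* π'.ker := MulEquiv.ofBijective f hfbij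
  let l : π'.ker →* ℂˣ := φ.comp e.symm.toMonoidHom
  have hl : Function.Injective l := C.inj.comp e.symm.injective
  obtain ⟨χ, hχ, hχl, hd⟩ := h (H ⧸ C0) π' hπ' hcen' hperf' hcard' l hl
  refine not_dvd_of_core C (χ := χ ∘ (QuotientGroup.mk' C0)) (isIrr_comp _ (QuotientGroup.mk'_surjective C0) hχ) ?_ ?_
  · intro n
    have h1 := hχl (e n)
    have h2 : l (e n) = φ n := by
      show φ (e.symm (e n)) = φ n
      rw [e.symm_apply_apply]
    rw [h2] at h1
    exact h1
  · have h2 : charDegree (χ ∘ (QuotientGroup.mk' C0)) = charDegree χ := by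
      unfold charDegree
      show ⌊(χ (QuotientGroup.mk' C0 1)).re⌋₊ = _
      rw [map_one]
    rw [h2]
    exact hd

theorem dvd_six_aux {a b : ℕ} (ha : a ∣ 6) (hb : b ∣ a) (h1 : b ≠ 1) (h2 : b ≠ a) : a = 6 ∧ (b = 2 ∨ b = 3) := by
  have h3 : a ≤ 6 := Nat.le_of_dvd (by norm_num) ha
  have h4 : 0 < a := Nat.pos_of_dvd_of_pos ha (by norm_num)
  have h5 : b ≤ a := Nat.le_of_dvd h4 hb
  have h6 : b ≤ 6 := h5.trans h3
  clear h5
  revert hb h1 h2
  interval_cases a <;> revert ha <;> interval_cases b <;> decide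

/-- **Multiplier dividing six.** -/
theorem ek_of_nb {p : ℕ} {S : Type u} [Group S] [Finite S]
    (hM : ∀ (E : Type u) [Group E] [Finite E] (π : E →* S), Function.Surjective π → π.ker ≤ center E →
      commutator E = ⊤ → ¬ p ∣ Nat.card π.ker → Nat.card π.ker ∣ 6)
    (h2 : NB p 2 S) (h3 : NB p 3 S) (h : NoPEx p S) : EK p S := by
  intro H V _ _ _ _ _ K N φ π C hπ hker hcom
  have hKZ : K ≤ center H := Cfsg.Agent.H315.RIM.le_center_of_perf C.perf C.cen hcom
  have hK : Nat.card K ∣ 6 := by
    have h1 := hM H π hπ (by rw [hker]; exact hKZ) C.perf (by rw [hker]; exact C.pK)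
    rwa [hker] at h1
  by_cases hNK : N = K
  · exact false_of_noPEx h C hπ hker hNK
  have h1 : Nat.card N ∣ Nat.card K := card_dvd_of_le C.NK
  have hN1 : Nat.card N ≠ 1 := fun h2 => C.Nne (card_eq_one.1 h2)
  have hNK' : Nat.card N ≠ Nat.card K := fun h2 => hNK (eq_of_le_of_card_ge C.NK h2.ge)
  have hK6 := dvd_six_aux hK h1 hN1 hNK'
  rcases hK6 with ⟨hk, hn | hn⟩
  · exact false_of_nb Nat.prime_three (by norm_num) h2 C hπ hker hKZ hn (by rw [hk])
  · exact false_of_nb Nat.prime_two (by norm_num) h3 C hπ hker hKZ hn (by rw [hk])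

end Cfsg.Agent.H175.RIM
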